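import Cfsg.Agent.H672.Over
import Cfsg.Agent.Classification.QDW.FrobLift
import Cfsg.Agent.H462.T3.MulIrr

/-!
# Characters of `GL₃(F)` over characters of `SL₃(F)` (helper462)

* `DD F`, `HH F` : the matrices with determinant one, a cube;
* `dvd_three_mul` : if `Φ` lies over `ψ ∈ Irr (DD F)` then `Φ(1)` divides `3 ψ(1)`;
* `charDegree_eq` : if `ψ` is fixed by a matrix outside `HH F` then `Φ(1) = ψ(1)`;
* `exists_gl` : the same for `SL₃(F)`.
-/

set_option autoImplicit false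

namespace Cfsg.Agent.H462.T3

open Cfsg Matrix Cfsg.Agent.Characters Cfsg.Agent.Characters.Core Cfsg.Agent.H672

universe u

section

variable (F : Type u) [Field F]

/-- the matrices of determinant one -/
def DD : Subgroup (GL (Fin 3) F) := (Matrix.GeneralLinearGroup.det : GL (Fin 3) F →* Fˣ).ker

/-- the matrices whose determinant is a cube -/
def HH : Subgroup (GL (Fin 3) F) :=
  ((powMonoidHom 3 : Fˣ →* Fˣ).range).comap (Matrix.GeneralLinearGroup.det : GL (Fin 3) F →* Fˣ)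

instance dd_normal : (DD F).Normal := MonoidHom.normal_ker _

instance hh_normal : (HH F).Normal := Subgroup.Normal.comap inferInstance _

variable {F}

theorem mem_DD {g : GL (Fin 3) F} : g ∈ DD F ↔ Matrix.GeneralLinearGroup.det g = 1 := MonoidHom.mem_ker

theorem mem_HH {g : GL (Fin 3) F} : g ∈ HH F ↔ ∃ c : Fˣ, c ^ 3 = Matrix.GeneralLinearGroup.det g := by
  rw [HH, Subgroup.mem_comap, MonoidHom.mem_range]
  rfl

theorem DD_le_HH : DD F ≤ HH F := by
  intro g hg
  rw [mem_HH]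
  exact ⟨1, by rw [mem_DD.1 hg, one_pow]⟩

/-- the scalar matrices -/
def sc : Fˣ →* GL (Fin 3) F := Units.map (algebraMap F (Matrix (Fin 3) (Fin 3) F)).toMonoidHom

theorem sc_val (c : Fˣ) : ((sc c : GL (Fin 3) F) : Matrix (Fin 3) (Fin 3) F) = (c : F) • 1 := by
  rw [sc, Units.coe_map]
  exact Algebra.algebraMap_eq_smul_one (c : F)

theorem sc_comm (c : Fˣ) (g : GL (Fin 3) F) : sc c * g = g * sc c := by
  apply Units.ext
  rw [Units.val_mul, Units.val_mul, sc_val]
  simp

theorem det_sc (c : Fˣ) : Matrix.GeneralLinearGroup.det (sc c) = c ^ 3 := by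
  apply Units.ext
  rw [Matrix.GeneralLinearGroup.val_det_apply, sc_val, Matrix.det_smul, Matrix.det_one, mul_one, Fintype.card_fin,
    Units.val_pow_eq_pow_val]

/-- elements of `HH F` are scalar times determinant one -/
theorem exists_sc {g : GL (Fin 3) F} (hg : g ∈ HH F) : ∃ (c : Fˣ) (s : GL (Fin 3) F), s ∈ DD F ∧ g = sc c * s := by
  obtain ⟨c, hc⟩ := mem_HH.1 hg
  refine ⟨c, (sc c)⁻¹ * g, ?_, by group⟩
  rw [mem_DD, map_mul, map_inv, det_sc, hc, inv_mul_cancel]

theorem index_HH [Finite F] : (HH F).index ∣ 3 := by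
  rw [HH, Subgroup.index_comap_of_surjective _ Matrix.GeneralLinearGroup.det_surjective,
    IsCyclic.index_powMonoidHom_range]
  exact Nat.gcd_dvd_right _ _

variable [Finite F]

/-- `HH F` fixes the characters of `DD F` -/
theorem HH_le_inertia {ψ : DD F → ℂ} (hψ : IsClassFunction (DD F) ψ) : HH F ≤ inertia (DD F) ψ := by
  intro g hg
  obtain ⟨c, s, hs, rfl⟩ := exists_sc hg
  rw [mem_inertia_iff]
  intro n
  rw [← hψ n ⟨s, hs⟩]
  congr 1
  apply Subtype.ext
  change sc c * s * (n : GL (Fin 3) F) * (sc c * s)⁻¹ = s * n * s⁻¹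
  have h1 : sc c * s * (n : GL (Fin 3) F) * (sc c * s)⁻¹ = sc c * (s * n * s⁻¹) * (sc c)⁻¹ := by group
  rw [h1, sc_comm, mul_inv_cancel_right]

theorem inertia_eq_top {ψ : DD F → ℂ} (hψ : IsClassFunction (DD F) ψ) {A : GL (Fin 3) F}
    (hA : A ∈ inertia (DD F) ψ) (hAH : A ∉ HH F) : inertia (DD F) ψ = ⊤ := by
  have h1 := HH_le_inertia hψ
  have h2 := Subgroup.relIndex_mul_index h1
  rw [← Subgroup.index_eq_one]
  rcases (Nat.dvd_prime Nat.prime_three).1 ((Subgroup.index_dvd_of_le h1).trans index_HH) with h3 | h3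
  · exact h3
  · exfalso
    rw [h3] at h2
    have h4 : (HH F).relIndex (inertia (DD F) ψ) = 1 := by
      have h5 := Nat.le_of_dvd (by norm_num) (index_HH (F := F))
      have h6 : (HH F).index ≠ 0 := Subgroup.index_ne_zero_of_finite
      omega
    exact hAH (Subgroup.relIndex_eq_one.1 h4 hA)

theorem cyclic_quot {T : Type u} [Group T] (f : T →* Fˣ) (K : Subgroup T) [K.Normal] (hK : f.ker = K) :
    IsCyclic (T ⧸ K) := by
  subst hK
  exact isCyclic_of_injective (QuotientGroup.kerLift f) (QuotientGroup.kerLift_injective f)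

/-- `Φ(1)` divides `3 ψ(1)` -/
theorem dvd_three_mul {Φ : GL (Fin 3) F → ℂ} (hΦ : IsIrrCharacter _ Φ) {ψ : DD F → ℂ} (hψ : IsIrrCharacter _ ψ)
    (ho : Over (DD F).subtype Φ ψ) : charDegree Φ ∣ 3 * charDegree ψ := by
  classical
  have hle : DD F ≤ HH F := DD_le_HH
  have h1 : Over ((HH F).subtype.comp (Subgroup.inclusion hle)) Φ ψ := ho
  obtain ⟨η, hη, h2, h3⟩ := (over_comp_iff _ _ (isIrr_isCharacter hΦ) hψ).1 h1
  obtain ⟨h4, h5⟩ := charDegree_dvd_of_over (HH F) hΦ hη h2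
  -- restriction of `η`
  have hK : ((DD F).subgroupOf (HH F)).Normal := inferInstance
  have := Fintype.ofFinite ((DD F).subgroupOf (HH F))
  let eD : (DD F).subgroupOf (HH F) ≃* DD F := Subgroup.subgroupOfEquivOfLe hle
  have hψ' : IsIrrCharacter ((DD F).subgroupOf (HH F)) (ψ ∘ eD) := isIrr_comp eD.toMonoidHom eD.surjective hψ
  have hcyc : IsCyclic (HH F ⧸ (DD F).subgroupOf (HH F)) := by
    refine cyclic_quot ((Matrix.GeneralLinearGroup.det : GL (Fin 3) F →* Fˣ).comp (HH F).subtype) _ ?_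
    ext x
    rw [MonoidHom.mem_ker, Subgroup.mem_subgroupOf, mem_DD]
    rfl
  have ho' : classInner (fun k : (DD F).subgroupOf (HH F) => η k) (ψ ∘ eD) ≠ 0 := by
    have h6 := (over_comp_equiv (Subgroup.inclusion hle) eD η ψ).2 h3
    rw [over_iff] at h6
    exact h6
  have hres := Cfsg.Agent.Classification.QDW.FrobLift.restrict_eq ((DD F).subgroupOf (HH F)) hcyc hψ' (by
    intro g n
    have h7 := (mem_inertia_iff.1 (HH_le_inertia (isIrr_isClassFunction hψ) g.2)) (eD n)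
    change ψ _ = ψ (eD n)
    rw [← h7]
    congr 1) hη ho' 1
  have h6 : charDegree η = charDegree ψ := by
    apply charDegree_of_eq
    rw [coe_charDegree hψ]
    have h7 : η 1 = (ψ ∘ eD) 1 := hres
    rw [h7, Function.comp, map_one]
  rw [← h6]
  obtain ⟨k, hk⟩ := h4
  rw [hk, Nat.mul_div_cancel_left _ (charDegree_pos hη)] at h5
  rw [hk, mul_comm]
  exact Nat.mul_dvd_mul_right (h5.trans index_HH) _

/-- If `ψ` is fixed by a matrix outside `HH F` then `Φ(1) = ψ(1)`. -/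
theorem charDegree_eq {Φ : GL (Fin 3) F → ℂ} (hΦ : IsIrrCharacter _ Φ) {ψ : DD F → ℂ} (hψ : IsIrrCharacter _ ψ)
    (ho : Over (DD F).subtype Φ ψ) {A : GL (Fin 3) F} (hA : A ∈ inertia (DD F) ψ) (hAH : A ∉ HH F) :
    charDegree Φ = charDegree ψ := by
  classical
  have := Fintype.ofFinite (DD F)
  have htop := inertia_eq_top (isIrr_isClassFunction hψ) hA hAH
  have hcyc : IsCyclic (GL (Fin 3) F ⧸ DD F) := cyclic_quot (Matrix.GeneralLinearGroup.det : GL (Fin 3) F →* Fˣ) _ rfl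
  have hres := Cfsg.Agent.Classification.QDW.FrobLift.restrict_eq (DD F) hcyc hψ (by
    intro g n
    have h7 : g ∈ inertia (DD F) ψ := by rw [htop]; trivial
    exact mem_inertia_iff.1 h7 n) hΦ ((over_subtype_iff _ _ _).1 ho) 1
  apply charDegree_of_eq
  rw [coe_charDegree hψ]
  exact hres

end

section sl

variable {F : Type u} [Field F]

/-- `SL₃(F)` is the group of the matrices of determinant one. -/
def eD : Matrix.SpecialLinearGroup (Fin 3) F ≃* DD F where
  toFun s := ⟨Matrix.SpecialLinearGroup.toGL s, by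
    rw [mem_DD]
    apply Units.ext
    rw [Matrix.GeneralLinearGroup.val_det_apply]
    exact s.2⟩
  invFun g := ⟨((g : GL (Fin 3) F) : Matrix (Fin 3) (Fin 3) F), by
    have h := mem_DD.1 g.2
    rw [← Matrix.GeneralLinearGroup.val_det_apply, h, Units.val_one]⟩
  left_inv s := Subtype.ext rfl
  right_inv g := Subtype.ext (Units.ext rfl)
  map_mul' a b := Subtype.ext (map_mul Matrix.SpecialLinearGroup.toGL a b)

theorem eD_val (s : Matrix.SpecialLinearGroup (Fin 3) F) :
    (((eD s : DD F) : GL (Fin 3) F) : Matrix (Fin 3) (Fin 3) F) = s := rfl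

/-- conjugation by an invertible matrix -/
def cA (A : GL (Fin 3) F) : MulAut (Matrix.SpecialLinearGroup (Fin 3) F) :=
  (eD.trans (MulAut.conjNormal A : MulAut (DD F))).trans eD.symm

theorem cA_val (A : GL (Fin 3) F) (s : Matrix.SpecialLinearGroup (Fin 3) F) :
    ((cA A s : Matrix.SpecialLinearGroup (Fin 3) F) : Matrix (Fin 3) (Fin 3) F) =
      (A : Matrix (Fin 3) (Fin 3) F) * s * ((A⁻¹ : GL (Fin 3) F) : Matrix (Fin 3) (Fin 3) F) := rfl

theorem eD_cA (A : GL (Fin 3) F) (s : Matrix.SpecialLinearGroup (Fin 3) F) :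
    eD (cA A s) = (MulAut.conjNormal A : MulAut (DD F)) (eD s) := by
  change eD (eD.symm _) = _
  rw [MulEquiv.apply_symm_apply]
  rfl

/-- if the determinant of `A` is a cube, `cA A` is inner -/
theorem exists_inner_of_mem_HH {A : GL (Fin 3) F} (hA : A ∈ HH F) :
    ∃ s₀ : Matrix.SpecialLinearGroup (Fin 3) F, ∀ s, cA A s = s₀ * s * s₀⁻¹ := by
  obtain ⟨c, t, ht, rfl⟩ := exists_sc hA
  refine ⟨eD.symm ⟨t, ht⟩, fun s => ?_⟩
  apply eD.injective
  rw [eD_cA, map_mul eD, map_mul eD, map_inv eD, MulEquiv.apply_symm_apply]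
  apply Subtype.ext
  rw [MulAut.conjNormal_apply]
  change sc c * t * (eD s : GL (Fin 3) F) * (sc c * t)⁻¹ = t * (eD s : GL (Fin 3) F) * t⁻¹
  have h1 : sc c * t * (eD s : GL (Fin 3) F) * (sc c * t)⁻¹ = sc c * (t * (eD s : GL (Fin 3) F) * t⁻¹) * (sc c)⁻¹ := by
    group
  rw [h1, sc_comm, mul_inv_cancel_right]

/-- **Characters of `GL₃(F)` over a character of `SL₃(F)`.** -/
theorem exists_gl [Finite F] {ψ : Matrix.SpecialLinearGroup (Fin 3) F → ℂ} (hψ : IsIrrCharacter _ ψ) :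
    ∃ Φ : GL (Fin 3) F → ℂ, IsIrrCharacter _ Φ ∧ charDegree Φ ∣ 3 * charDegree ψ ∧ charDegree ψ ∣ charDegree Φ ∧
      ∀ A : GL (Fin 3) F, A ∉ HH F → (∀ s, ψ (cA A s) = ψ s) → charDegree Φ = charDegree ψ := by
  classical
  have hψ' : IsIrrCharacter (DD F) (ψ ∘ (eD (F := F)).symm) :=
    isIrr_comp (eD (F := F)).symm.toMonoidHom (eD (F := F)).symm.surjective hψ
  have hdeg : charDegree (ψ ∘ eD.symm) = charDegree ψ := by
    apply charDegree_of_eq
    rw [Function.comp, map_one, coe_charDegree hψ]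
  obtain ⟨Φ, hΦ, ho⟩ := exists_over_subtype (DD F) hψ'
  refine ⟨Φ, hΦ, ?_, ?_, ?_⟩
  · rw [← hdeg]
    exact dvd_three_mul hΦ hψ' ho
  · rw [← hdeg]
    exact (charDegree_dvd_of_over (DD F) hΦ hψ' ho).1
  · intro A hA hfix
    rw [← hdeg]
    refine charDegree_eq hΦ hψ' ho (A := A) ?_ hA
    rw [mem_inertia]
    funext d
    obtain ⟨s, rfl⟩ := eD.surjective d
    change ψ (eD.symm ((MulAut.conjNormal A : MulAut (DD F)) (eD s))) = ψ (eD.symm (eD s))
    rw [← eD_cA, MulEquiv.symm_apply_apply, MulEquiv.symm_apply_apply]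
    exact hfix s

end sl

end Cfsg.Agent.H462.T3
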