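import Cfsg.Agent.H462.T3.Num
import Cfsg.Agent.H462.T3.GLThree
import Cfsg.Agent.LieClassical.SLGen
import Cfsg.Agent.H279.CentProd
import Cfsg.Agent.CharDeep.DegreeBound
import Cfsg.Agent.CharactersDeep.NormalSylow
import Cfsg.Prelude.Def_StandardType

/-!
# The last step of S4855 (helper462)

`final3` : `G' ≅ SL₃(F)` or `PSL₃(F)`, `cd(G) ⊆ DT q`, `(q - 1)² (q + 1) / 3 ∈ cd(G)` if `3 ∣ q - 1` imply that `G` is the
central product of a subgroup isomorphic to `SL₃(F)` and an abelian group.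
-/

set_option autoImplicit false

namespace Cfsg.Agent.H462.T3

open Cfsg Matrix Cfsg.Agent.Characters Cfsg.Agent.Characters.Core Cfsg.Agent.H672
open Cfsg.Agent.H691 Cfsg.Agent.H691.T3

universe u v

/-- homomorphisms of a perfect group agreeing modulo the centre are equal -/
theorem hom_eq {A : Type u} {B : Type v} [Group A] [Group B] (hA : commutator A = ⊤) (f g : A →* B)
    (h : ∀ a, (g a)⁻¹ * f a ∈ Subgroup.center B) : f = g := by
  let k : A →* Subgroup.center B :=
    { toFun := fun a => ⟨(g a)⁻¹ * f a, h a⟩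
      map_one' := by
        apply Subtype.ext
        simp
      map_mul' := by
        intro a b
        apply Subtype.ext
        change (g (a * b))⁻¹ * f (a * b) = ((g a)⁻¹ * f a) * ((g b)⁻¹ * f b)
        have h1 := Subgroup.mem_center_iff.1 (h a) (g b)⁻¹
        have h2 : (g (a * b))⁻¹ * f (a * b) = ((g b)⁻¹ * ((g a)⁻¹ * f a)) * f b := by
          rw [map_mul, map_mul, _root_.mul_inv_rev]
          simp only [mul_assoc]
        rw [h2, h1, mul_assoc] }
  have h1 : commutator A ≤ k.ker := by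
    rw [commutator_def, Subgroup.commutator_le]
    intro a _ b _
    rw [MonoidHom.mem_ker, map_commutatorElement, commutatorElement_eq_one_iff_mul_comm]
    apply Subtype.ext
    exact Subgroup.mem_center_iff.1 (k b).2 (k a)
  ext a
  have h2 : k a = 1 := h1 (by rw [hA]; trivial)
  have h3 : (g a)⁻¹ * f a = 1 := congrArg Subtype.val h2
  exact (inv_mul_eq_one.1 h3).symm

theorem perfect_of_surj {A : Type u} {B : Type v} [Group A] [Group B] (hA : commutator A = ⊤) (f : A →* B)
    (hf : Function.Surjective f) : commutator B = ⊤ := by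
  have h1 := congrArg (Subgroup.map f) hA
  rw [commutator_def, Subgroup.map_commutator, ← MonoidHom.range_eq_map, MonoidHom.range_eq_top.2 hf] at h1
  exact h1

/-- elements centralising `N` act as scalars if `χ` is irreducible on `N` -/
theorem norm_of_centralizes {G : Type u} [Group G] [Finite G] {N : Subgroup G} {χ : G → ℂ} (hχ : IsIrrCharacter G χ)
    (hN : IsIrrCharacter N (χ ∘ N.subtype)) {x : G} (hx : x ∈ Subgroup.centralizer (N : Set G)) : ‖χ x‖ = ‖χ 1‖ := by
  classical
  have := Fintype.ofFinite N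
  set Y : Subgroup G := Subgroup.centralizer ({x} : Set G) with hY
  have hNY : N ≤ Y := by
    intro n hn
    rw [hY, Subgroup.mem_centralizer_singleton_iff]
    exact (Subgroup.mem_centralizer_iff.1 hx n hn)
  obtain ⟨η, hη, ho⟩ := exists_under (f := Y.subtype) hχ
  obtain ⟨θ, hθ, hoθ⟩ := exists_under (f := Subgroup.inclusion hNY) hη
  have h1 : Over (Y.subtype.comp (Subgroup.inclusion hNY)) χ θ :=
    (over_comp_iff _ _ (isIrr_isCharacter hχ) hθ).2 ⟨η, hη, ho, hoθ⟩
  have h2 : χ ∘ N.subtype = θ := by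
    by_contra hne
    have h3 : classInner (χ ∘ N.subtype) θ = 0 := classInner_irr_ne hN hθ hne
    rw [over_iff] at h1
    exact h1 h3
  have h3 : charDegree θ ≤ charDegree η := charDegree_le_of_over hη hθ hoθ
  have h4 : charDegree η ≤ charDegree χ := charDegree_le_of_over hχ hη ho
  have h5 : charDegree θ = charDegree χ := by
    apply charDegree_of_eq
    rw [coe_charDegree hχ, ← h2, Function.comp, map_one]
  have h6 : χ ∘ Y.subtype = η := eq_of_over_of_charDegree_eq hχ hη ho (by omega)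
  have hxY : x ∈ Y := by
    rw [hY, Subgroup.mem_centralizer_singleton_iff]
  have hxc : (⟨x, hxY⟩ : Y) ∈ Subgroup.center Y := by
    rw [Subgroup.mem_center_iff]
    intro y
    apply Subtype.ext
    exact Subgroup.mem_centralizer_singleton_iff.1 y.2
  have := Fintype.ofFinite Y
  obtain ⟨w, hw, hw'⟩ := Cfsg.Agent.CharDeep.DegreeBound.exists_omega hη hxc
  have h7 := hw' 1
  rw [one_mul, ← h6] at h7
  have h8 : χ x = w * χ 1 := h7
  rw [h8, norm_mul, hw, one_mul]

section action

variable {G : Type u} [Group G] {F : Type} [Field F] {N : Subgroup G} [N.Normal]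
  (σ : Matrix.SpecialLinearGroup (Fin 3) F →* N) (hσ : Function.Surjective σ)
  (ρ : N →* Matrix.ProjectiveSpecialLinearGroup (Fin 3) F)
  (hρσ : ∀ s, ρ (σ s) = (QuotientGroup.mk s : Matrix.ProjectiveSpecialLinearGroup (Fin 3) F))
  (hker : ρ.ker ≤ Subgroup.center N) (hchar : ρ.ker.Characteristic)

include hρσ in
omit [N.Normal] in
theorem rho_surj : Function.Surjective ρ := by
  intro x
  obtain ⟨s, rfl⟩ := QuotientGroup.mk_surjective x
  exact ⟨σ s, hρσ s⟩

include hρσ hchar in
omit [N.Normal] in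
/-- automorphisms of `N` act on `PSL₃(F)` -/
theorem exists_beta (a : MulAut N) : ∃ β : MulAut (Matrix.ProjectiveSpecialLinearGroup (Fin 3) F),
    ∀ n, β (ρ n) = ρ (a n) := by
  have hs : Function.Surjective ρ := rho_surj σ ρ hρσ
  let e₁ : (N ⧸ ρ.ker) ≃* Matrix.ProjectiveSpecialLinearGroup (Fin 3) F := QuotientGroup.quotientKerEquivOfSurjective ρ hs
  let e₂ : (N ⧸ ρ.ker) ≃* (N ⧸ ρ.ker) := QuotientGroup.congr ρ.ker ρ.ker a
    (Subgroup.characteristic_iff_map_eq.1 hchar a)
  have he₁ : ∀ n : N, e₁ (QuotientGroup.mk n) = ρ n := fun n => rfl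
  have he₂ : ∀ n : N, e₂ (QuotientGroup.mk n) = QuotientGroup.mk (a n) := fun n => rfl
  refine ⟨(e₁.symm.trans e₂).trans e₁, fun n => ?_⟩
  rw [MulEquiv.trans_apply, MulEquiv.trans_apply, ← he₁ n, MulEquiv.symm_apply_apply, he₂, he₁]

variable [Finite G] [Fintype F]

include hρσ hker hchar in
/-- **Step 1**: the elements of `G` act on `N` as matrices. -/
theorem exists_matrix (h3 : 3 ≤ Fintype.card F) (hD : charDegrees G ⊆ DT (Fintype.card F))
    (hinn : ∀ β : MulAut (Matrix.ProjectiveSpecialLinearGroup (Fin 3) F),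
      (∀ θ : Matrix.ProjectiveSpecialLinearGroup (Fin 3) F → ℂ, IsIrrCharacter _ θ →
        (charDegree θ = (Fintype.card F - 1) ^ 2 * (Fintype.card F + 1) ∨ charDegree θ + 1 = Fintype.card F ^ 3) →
        θ ∘ β = θ) → IsInnerDiagonalAutPSL β) (g : G) :
    ∃ A : GL (Fin 3) F, ∀ s, (MulAut.conjNormal g : MulAut N) (σ s) = σ (cA A s) := by
  classical
  have hs : Function.Surjective ρ := rho_surj σ ρ hρσ
  obtain ⟨β, hβ⟩ := exists_beta σ ρ hρσ hchar (MulAut.conjNormal g)
  obtain ⟨A, hA⟩ := hinn β (by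
    intro θ hθ hdeg
    have hθ' : IsIrrCharacter N (θ ∘ ρ) := isIrr_comp ρ hs hθ
    have hd : charDegree (θ ∘ ρ) = charDegree θ := by
      apply charDegree_of_eq
      rw [Function.comp, map_one, coe_charDegree hθ]
    obtain ⟨χ, hχ, ho⟩ := exists_over_subtype N hθ'
    have h1 := index_mul_charDegree_dvd N hχ hθ' ho
    rw [hd] at h1
    have h2 : (inertia N (θ ∘ ρ)).index = 1 := by
      by_contra hne
      exact no_mult h3 (hD ⟨⟨χ, hχ⟩, rfl⟩) hdeg hne h1
    have h4 : g ∈ inertia N (θ ∘ ρ) := by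
      rw [Subgroup.index_eq_one.1 h2]; trivial
    rw [mem_inertia] at h4
    funext y
    obtain ⟨n, rfl⟩ := hs y
    rw [Function.comp, hβ]
    exact congrFun h4 n)
  refine ⟨A, ?_⟩
  have key : ((MulAut.conjNormal g : MulAut N).toMonoidHom.comp σ) = σ.comp (cA A).toMonoidHom := by
    apply hom_eq (LieClassical.SLGen.commutator_eq_top (by rw [Fintype.card_fin]))
    intro s
    apply hker
    rw [MonoidHom.mem_ker, map_mul, map_inv]
    change (ρ (σ (cA A s)))⁻¹ * ρ ((MulAut.conjNormal g : MulAut N) (σ s)) = 1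
    rw [← hβ, hρσ, hρσ, hA s (cA A s) (cA_val A s), inv_mul_cancel]
  intro s
  exact DFunLike.congr_fun key s

include hσ in
omit [Finite G] [Fintype F] in
/-- **Step 2** -/
theorem mem_sup {g : G} {A : GL (Fin 3) F} (hA : ∀ s, (MulAut.conjNormal g : MulAut N) (σ s) = σ (cA A s))
    (hAH : A ∈ HH F) : g ∈ N ⊔ Subgroup.centralizer (N : Set G) := by
  obtain ⟨s₀, hs₀⟩ := exists_inner_of_mem_HH hAH
  set h : N := σ s₀ with hh
  have hkey : ∀ n : N, g * (n : G) * g⁻¹ = (h : G) * n * (h : G)⁻¹ := by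
    intro n
    obtain ⟨s, rfl⟩ := hσ n
    have h1 := hA s
    rw [hs₀, map_mul, map_mul, map_inv] at h1
    have h2 := congrArg Subtype.val h1
    rw [MulAut.conjNormal_apply] at h2
    exact h2
  have hmem : (h : G)⁻¹ * g ∈ Subgroup.centralizer (N : Set G) := by
    rw [Subgroup.mem_centralizer_iff]
    intro n hn
    have h1 := hkey ⟨n, hn⟩
    have h2 : g * n = (h : G) * n * (h : G)⁻¹ * g := by
      rw [← h1]; group
    have h3 : (h : G)⁻¹ * (g * n) = (h : G)⁻¹ * ((h : G) * n * (h : G)⁻¹ * g) := by rw [h2]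
    have h4 : (h : G)⁻¹ * ((h : G) * n * (h : G)⁻¹ * g) = n * ((h : G)⁻¹ * g) := by group
    rw [h4, ← mul_assoc] at h3
    exact h3.symm
  have hg : g = (h : G) * ((h : G)⁻¹ * g) := by group
  rw [hg]
  exact Subgroup.mul_mem_sup h.2 hmem

end action

/-- the centre of `SL₃(F)` -/
theorem center_sl {F : Type u} [Field F] {s : Matrix.SpecialLinearGroup (Fin 3) F}
    (hs : s ∈ Subgroup.center (Matrix.SpecialLinearGroup (Fin 3) F)) :
    ∃ r : F, r ^ 3 = 1 ∧ (s : Matrix (Fin 3) (Fin 3) F) = Matrix.diagonal fun _ => r := by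
  obtain ⟨r, hr, hrs⟩ := Matrix.SpecialLinearGroup.mem_center_iff.1 hs
  rw [Fintype.card_fin] at hr
  exact ⟨r, hr, hrs.symm⟩

/-- `3 ∤ q - 1` : the centre of `SL₃(F)` is trivial. -/
theorem center_eq_one {F : Type u} [Field F] [Fintype F] (h : ¬ 3 ∣ Fintype.card F - 1)
    {s : Matrix.SpecialLinearGroup (Fin 3) F}
    (hs : s ∈ Subgroup.center (Matrix.SpecialLinearGroup (Fin 3) F)) : s = 1 := by
  obtain ⟨r, hr, hrs⟩ := center_sl hs
  have hr0 : r ≠ 0 := by
    rintro rfl
    norm_num at hr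
  have h1 : r ^ (Fintype.card F - 1) = 1 := FiniteField.pow_card_sub_one_eq_one r hr0
  have h2 : orderOf r ∣ Nat.gcd 3 (Fintype.card F - 1) :=
    Nat.dvd_gcd (orderOf_dvd_of_pow_eq_one hr) (orderOf_dvd_of_pow_eq_one h1)
  have h3 : Nat.gcd 3 (Fintype.card F - 1) = 1 := by
    rcases (Nat.dvd_prime Nat.prime_three).1 (Nat.gcd_dvd_left 3 (Fintype.card F - 1)) with h4 | h4
    · exact h4
    · exact (h (Nat.gcd_eq_left_iff_dvd.1 h4)).elim
  rw [h3, Nat.dvd_one, orderOf_eq_one_iff] at h2
  apply Subtype.ext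
  rw [hrs, h2]
  exact Matrix.diagonal_one

/-- `HH F` is everything if `3 ∤ q - 1` -/
theorem mem_HH_of_not_dvd {F : Type u} [Field F] [Fintype F] (h : ¬ 3 ∣ Fintype.card F - 1) (A : GL (Fin 3) F) :
    A ∈ HH F := by
  have h1 : (HH F).index = 1 := by
    rw [HH, Subgroup.index_comap_of_surjective _ Matrix.GeneralLinearGroup.det_surjective,
      IsCyclic.index_powMonoidHom_range, Nat.card_units, Nat.card_eq_fintype_card, Nat.gcd_comm]
    rcases (Nat.dvd_prime Nat.prime_three).1 (Nat.gcd_dvd_left 3 (Fintype.card F - 1)) with h4 | h4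
    · exact h4
    · exact (h (Nat.gcd_eq_left_iff_dvd.1 h4)).elim
  rw [Subgroup.index_eq_one.1 h1]
  trivial

/-- a nontrivial central element of `SL₃(F)` generates the centre -/
theorem center_gen {F : Type u} [Field F] {t s : Matrix.SpecialLinearGroup (Fin 3) F}
    (ht : t ∈ Subgroup.center (Matrix.SpecialLinearGroup (Fin 3) F)) (ht1 : t ≠ 1)
    (hs : s ∈ Subgroup.center (Matrix.SpecialLinearGroup (Fin 3) F)) : ∃ k : ℕ, s = t ^ k := by
  obtain ⟨r, hr, hrt⟩ := center_sl ht
  obtain ⟨w, hw, hws⟩ := center_sl hs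
  have hr1 : r ≠ 1 := by
    intro h
    apply ht1
    apply Subtype.ext
    rw [hrt, h]
    exact Matrix.diagonal_one
  have h1 : r ^ 2 + r + 1 = 0 := by
    have h2 : (r - 1) * (r ^ 2 + r + 1) = 0 := by
      have : (r - 1) * (r ^ 2 + r + 1) = r ^ 3 - 1 := by ring
      rw [this, hr, sub_self]
    exact (mul_eq_zero.1 h2).resolve_left (sub_ne_zero.2 hr1)
  have h2 : (w - 1) * ((w - r) * (w - r ^ 2)) = 0 := by
    have h3 : (w - 1) * ((w - r) * (w - r ^ 2)) =
        w ^ 3 - r ^ 3 - (w ^ 2 - w * r) * (r ^ 2 + r + 1) := by ring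
    rw [h3, h1, hw, hr]
    ring
  have hpow : ∀ k : ℕ, ((t ^ k : Matrix.SpecialLinearGroup (Fin 3) F) : Matrix (Fin 3) (Fin 3) F) =
      Matrix.diagonal fun _ => r ^ k := by
    intro k
    rw [Matrix.SpecialLinearGroup.coe_pow, hrt, Matrix.diagonal_pow]
    rfl
  rcases mul_eq_zero.1 h2 with h3 | h3
  · refine ⟨0, Subtype.ext ?_⟩
    rw [hws, hpow, pow_zero, sub_eq_zero.1 h3]
  · rcases mul_eq_zero.1 h3 with h4 | h4
    · refine ⟨1, Subtype.ext ?_⟩
      rw [hws, hpow, pow_one, sub_eq_zero.1 h4]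
    · refine ⟨2, Subtype.ext ?_⟩
      rw [hws, hpow, sub_eq_zero.1 h4]

/-- **The small characters.** -/
theorem exists_small {G : Type u} [Group G] [Finite G] {F : Type} [Field F] [Fintype F] (h3 : 3 ≤ Fintype.card F)
    (hgl : GLList F) (hperf : commutator (commutator G) = ⊤)
    (σ : Matrix.SpecialLinearGroup (Fin 3) F →* commutator G) (hσ : Function.Surjective σ)
    {χ : G → ℂ} (hχ : IsIrrCharacter G χ)
    (hm : 3 * charDegree χ = (Fintype.card F - 1) ^ 2 * (Fintype.card F + 1)) :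
    ∃ ψ : commutator G → ℂ, IsIrrCharacter _ ψ ∧ Over (commutator G).subtype χ ψ ∧ charDegree ψ = charDegree χ ∧
      ∀ A : GL (Fin 3) F, A ∉ HH F → ¬ ∀ s, ψ (σ (cA A s)) = ψ (σ s) := by
  classical
  obtain ⟨ψ, hψ, ho⟩ := exists_under (f := (commutator G).subtype) hχ
  have hdvd := (charDegree_dvd_of_over (commutator G) hχ hψ ho).1
  have hψσ : IsIrrCharacter _ (ψ ∘ σ) := isIrr_comp σ hσ hψ
  have hdeg : charDegree (ψ ∘ σ) = charDegree ψ := by
    apply charDegree_of_eq
    rw [Function.comp, map_one, coe_charDegree hψ]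
  obtain ⟨Φ, hΦ, h1, h2, h4⟩ := exists_gl hψσ
  rw [hdeg] at h1 h2
  have hbig : 3 < (Fintype.card F - 1) ^ 2 * (Fintype.card F + 1) := by
    obtain ⟨a, ha⟩ : ∃ a, Fintype.card F = a + 3 := ⟨Fintype.card F - 3, by omega⟩
    rw [ha]
    have e1 : a + 3 - 1 = a + 2 := rfl
    rw [e1]
    nlinarith [Nat.zero_le (a ^ 3), Nat.zero_le (a ^ 2)]
  have h5 : charDegree Φ ∣ (Fintype.card F - 1) ^ 2 * (Fintype.card F + 1) := by
    rw [← hm]
    exact h1.trans (Nat.mul_dvd_mul_left 3 hdvd)
  rcases deg_cases h3 hgl hΦ h5 with h6 | h6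
  · exfalso
    rw [h6, Nat.dvd_one] at h2
    have h7 : ψ 1 = 1 := by rw [← coe_charDegree hψ, h2, Nat.cast_one]
    have h8 := eq_one_of_perfect hperf hψ h7
    subst h8
    have h9 := Cfsg.Agent.H279.CentProd.degree_one_of_over_one (N := commutator G) le_rfl hχ ho
    have h10 : charDegree χ = 1 := charDegree_of_eq (by rw [h9, Nat.cast_one])
    rw [h10] at hm
    omega
  · have h7 : charDegree ψ = charDegree χ := by
      rw [h6, ← hm] at h1
      have h8 := Nat.dvd_of_mul_dvd_mul_left (by norm_num) h1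
      exact Nat.dvd_antisymm hdvd h8
    refine ⟨ψ, hψ, ho, h7, fun A hA hfix => ?_⟩
    have h8 := h4 A hA hfix
    rw [hdeg, h7, h6] at h8
    omega

theorem exists_sigma {G : Type u} [Group G] {F : Type} [Field F] {N : Subgroup G}
    (e : Nonempty (N ≃* SpecialLinearGroup (Fin 3) F) ∨ Nonempty (N ≃* ProjectiveSpecialLinearGroup (Fin 3) F)) :
    ∃ (σ : Matrix.SpecialLinearGroup (Fin 3) F →* N) (ρ : N →* Matrix.ProjectiveSpecialLinearGroup (Fin 3) F),
      Function.Surjective σ ∧
      (∀ s, ρ (σ s) = (QuotientGroup.mk s : Matrix.ProjectiveSpecialLinearGroup (Fin 3) F)) ∧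
      ρ.ker ≤ Subgroup.center N ∧ ρ.ker.Characteristic ∧ (Function.Injective σ ∨ ρ.ker = ⊥) := by
  rcases e with ⟨⟨e⟩⟩ | ⟨⟨e⟩⟩
  · have hk : ((QuotientGroup.mk' (Subgroup.center (SpecialLinearGroup (Fin 3) F))).comp e.toMonoidHom).ker =
        Subgroup.center N := by
      ext n
      rw [MonoidHom.mem_ker, MonoidHom.comp_apply]
      change (QuotientGroup.mk (e n) : SpecialLinearGroup (Fin 3) F ⧸ _) = 1 ↔ _
      rw [QuotientGroup.eq_one_iff, Subgroup.mem_center_iff, Subgroup.mem_center_iff]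
      constructor
      · intro h x
        apply e.injective
        rw [map_mul, map_mul]
        exact h (e x)
      · intro h x
        obtain ⟨y, rfl⟩ := e.surjective x
        rw [← map_mul, ← map_mul, h y]
    refine ⟨e.symm.toMonoidHom, (QuotientGroup.mk' (Subgroup.center (SpecialLinearGroup (Fin 3) F))).comp e.toMonoidHom,
      e.symm.surjective, ?_, ?_, ?_, Or.inl e.symm.injective⟩
    · intro s
      change (QuotientGroup.mk (e (e.symm s)) : SpecialLinearGroup (Fin 3) F ⧸ _) = _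
      rw [MulEquiv.apply_symm_apply]
    · exact hk.le
    · rw [hk]; infer_instance
  · have hk : e.toMonoidHom.ker = ⊥ := by
      rw [MonoidHom.ker_eq_bot_iff]
      exact e.injective
    refine ⟨e.symm.toMonoidHom.comp (QuotientGroup.mk' _), e.toMonoidHom,
      e.symm.surjective.comp (QuotientGroup.mk'_surjective _), ?_, ?_, ?_, Or.inr hk⟩
    · intro s
      change e (e.symm _) = _
      rw [MulEquiv.apply_symm_apply]
      rfl
    · rw [hk]; exact bot_le
    · rw [hk]; infer_instance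

/-- **The last step of S4855.** -/
theorem final3 {G : Type*} [Group G] [Finite G] {F : Type} [Field F] [Fintype F] (h3 : 3 ≤ Fintype.card F)
    (hD : charDegrees G ⊆ DT (Fintype.card F))
    (ht : 3 ∣ Fintype.card F - 1 → ∀ d, 3 * d = (Fintype.card F - 1) ^ 2 * (Fintype.card F + 1) → d ∈ charDegrees G)
    (e : Nonempty (commutator G ≃* SpecialLinearGroup (Fin 3) F) ∨
      Nonempty (commutator G ≃* ProjectiveSpecialLinearGroup (Fin 3) F))
    (hgl : GLList F)
    (hpsl : 3 ∣ Fintype.card F - 1 → ∀ d ∈ charDegrees (ProjectiveSpecialLinearGroup (Fin 3) F),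
      3 * d ≠ (Fintype.card F - 1) ^ 2 * (Fintype.card F + 1))
    (hinn : ∀ β : MulAut (ProjectiveSpecialLinearGroup (Fin 3) F),
      (∀ θ : ProjectiveSpecialLinearGroup (Fin 3) F → ℂ, IsIrrCharacter _ θ →
        (charDegree θ = (Fintype.card F - 1) ^ 2 * (Fintype.card F + 1) ∨ charDegree θ + 1 = Fintype.card F ^ 3) →
        θ ∘ β = θ) → IsInnerDiagonalAutPSL β) :
    ∃ K A : Subgroup G, Nonempty (K ≃* SpecialLinearGroup (Fin 3) F) ∧ IsMulCommutative A ∧
      A ≤ Subgroup.centralizer (K : Set G) ∧ K ⊔ A = ⊤ := by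
  classical
  obtain ⟨σ, ρ, hσ, hρσ, hker, hchar, hor⟩ := exists_sigma e
  have hmat := exists_matrix σ ρ hρσ hker hchar h3 hD hinn
  have hperfSL : commutator (Matrix.SpecialLinearGroup (Fin 3) F) = ⊤ :=
    LieClassical.SLGen.commutator_eq_top (by rw [Fintype.card_fin])
  have hperf : commutator (commutator G) = ⊤ := perfect_of_surj hperfSL σ hσ
  -- commutators of elements of the centralizer
  have hcomm : ∀ x ∈ Subgroup.centralizer (commutator G : Set G), ∀ y ∈ Subgroup.centralizer (commutator G : Set G),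
      x * y * x⁻¹ * y⁻¹ ∈ commutator G ∧ x * y * x⁻¹ * y⁻¹ ∈ Subgroup.centralizer (commutator G : Set G) := by
    intro x hx y hy
    refine ⟨?_, ?_⟩
    · have h1 := Subgroup.commutator_mem_commutator (Subgroup.mem_top x) (Subgroup.mem_top y)
      rwa [commutatorElement_def] at h1
    · exact Subgroup.mul_mem _ (Subgroup.mul_mem _ (Subgroup.mul_mem _ hx hy) (Subgroup.inv_mem _ hx))
        (Subgroup.inv_mem _ hy)
  have hmk : (∀ z : commutator G, z ∈ Subgroup.center (commutator G) →
      (∃ x ∈ Subgroup.centralizer (commutator G : Set G), ∃ y ∈ Subgroup.centralizer (commutator G : Set G),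
        (z : G) = x * y * x⁻¹ * y⁻¹) → z = 1) →
      IsMulCommutative (Subgroup.centralizer (commutator G : Set G)) := by
    intro hz
    refine ⟨⟨fun x y => ?_⟩⟩
    obtain ⟨h1, h2⟩ := hcomm x x.2 y y.2
    have h4 : (⟨_, h1⟩ : commutator G) ∈ Subgroup.center (commutator G) := by
      rw [Subgroup.mem_center_iff]
      intro n
      apply Subtype.ext
      exact Subgroup.mem_centralizer_iff.1 h2 n n.2
    have h5 := congrArg Subtype.val (hz ⟨_, h1⟩ h4 ⟨x, x.2, y, y.2, rfl⟩)
    apply Subtype.ext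
    have h6 : (x : G) * y * (x : G)⁻¹ * (y : G)⁻¹ = 1 := h5
    rw [mul_inv_eq_one, mul_inv_eq_iff_eq_mul] at h6
    exact h6
  by_cases hd : 3 ∣ Fintype.card F - 1
  · -- `3 ∣ q - 1`
    obtain ⟨m, hm⟩ : ∃ m, 3 * m = (Fintype.card F - 1) ^ 2 * (Fintype.card F + 1) := by
      obtain ⟨k, hk⟩ := hd
      exact ⟨k * (Fintype.card F - 1) * (Fintype.card F + 1), by
        rw [pow_two]
        nth_rewrite 2 [hk]
        ring⟩
    obtain ⟨χ, hχm⟩ := ht hd m hm
    have hχ := χ.2
    rw [← hχm] at hm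
    obtain ⟨ψ, hψ, ho, hψd, hno⟩ := exists_small h3 hgl hperf σ hσ hχ hm
    have hres : (χ : G → ℂ) ∘ (commutator G).subtype = ψ := eq_of_over_of_charDegree_eq hχ hψ ho hψd
    have hirr : IsIrrCharacter (commutator G) ((χ : G → ℂ) ∘ (commutator G).subtype) := by rw [hres]; exact hψ
    -- no irreducible character of `PSL₃(F)` has degree `m`
    have hnopsl : ∀ θ : ProjectiveSpecialLinearGroup (Fin 3) F → ℂ, IsIrrCharacter _ θ → θ 1 ≠ ψ 1 := by
      intro θ hθ h1
      have h2 : charDegree θ = charDegree (χ : G → ℂ) := by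
        rw [← hψd]
        apply charDegree_of_eq
        rw [h1, coe_charDegree hψ]
      exact hpsl hd (charDegree θ) ⟨⟨θ, hθ⟩, rfl⟩ (by rw [h2, hm])
    -- `G' ≅ SL₃(F)`
    have hinj : Function.Injective σ := by
      rcases hor with h | h
      · exact h
      · exfalso
        have hρb : Function.Bijective ρ := ⟨(MonoidHom.ker_eq_bot_iff ρ).1 h, rho_surj σ ρ hρσ⟩
        let e' : commutator G ≃* ProjectiveSpecialLinearGroup (Fin 3) F := MulEquiv.ofBijective ρ hρb
        refine hnopsl (ψ ∘ e'.symm) (isIrr_comp e'.symm.toMonoidHom e'.symm.surjective hψ) ?_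
        rw [Function.comp, map_one]
    let eS : SpecialLinearGroup (Fin 3) F ≃* commutator G := MulEquiv.ofBijective σ ⟨hinj, hσ⟩
    refine ⟨commutator G, Subgroup.centralizer (commutator G : Set G), ⟨eS.symm⟩, ?_, le_rfl, ?_⟩
    · apply hmk
      rintro z hz ⟨x, hx, y, hy, hxy⟩
      by_contra hz1
      -- `z` is in the kernel of `ψ`
      have h1 : ‖(χ : G → ℂ) x‖ = ((charDegree (χ : G → ℂ) : ℕ) : ℝ) := by
        rw [norm_of_centralizes hχ hirr hx, ← coe_charDegree hχ, Complex.norm_natCast]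
      have h2 := Cfsg.Agent.CharactersDeep.NormalSylow.apply_commutator_eq hχ (coe_charDegree hχ).symm h1 y
      have h4 : ψ z = ψ 1 := by
        rw [← hres]
        change (χ : G → ℂ) (z : G) = (χ : G → ℂ) 1
        rw [hxy, h2]
      -- the centre is in the kernel
      have ht0 : eS.symm z ∈ Subgroup.center (SpecialLinearGroup (Fin 3) F) := by
        rw [Subgroup.mem_center_iff]
        intro s
        apply eS.injective
        rw [map_mul, map_mul, MulEquiv.apply_symm_apply]
        exact Subgroup.mem_center_iff.1 hz (eS s)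
      have ht1 : eS.symm z ≠ 1 := by
        intro h
        apply hz1
        apply eS.symm.injective
        rw [h, map_one]
      have hψS : IsIrrCharacter _ (ψ ∘ eS) := isIrr_comp eS.toMonoidHom eS.surjective hψ
      have hkerψ : Subgroup.center (SpecialLinearGroup (Fin 3) F) ≤ H686.CharKit.chKer ⟨ψ ∘ eS, hψS⟩ := by
        intro s hs
        obtain ⟨k, rfl⟩ := center_gen ht0 ht1 hs
        apply Subgroup.pow_mem
        rw [H686.CharKit.mem_chKer]
        change ψ (eS (eS.symm z)) = ψ (eS 1)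
        rw [MulEquiv.apply_symm_apply, map_one, h4]
      obtain ⟨θ, hθ⟩ := H686.CharKit.exists_infl (Subgroup.center (SpecialLinearGroup (Fin 3) F)) ⟨ψ ∘ eS, hψS⟩ hkerψ
      refine hnopsl θ.1 θ.2 ?_
      have h5 := H686.CharKit.infl_apply (Subgroup.center (SpecialLinearGroup (Fin 3) F)) θ 1
      rw [hθ] at h5
      have h6 : ψ (eS 1) = θ.1 1 := h5
      rw [← h6, map_one]
    · rw [Subgroup.eq_top_iff']
      intro g
      obtain ⟨A, hA⟩ := hmat g
      refine mem_sup σ hσ hA ?_
      by_contra hAH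
      refine hno A hAH fun s => ?_
      rw [← hA s, ← hres]
      change (χ : G → ℂ) (((MulAut.conjNormal g : MulAut (commutator G)) (σ s) : commutator G) : G) =
        (χ : G → ℂ) (σ s : G)
      rw [MulAut.conjNormal_apply]
      exact isIrr_isClassFunction hχ (σ s : G) g
  · -- `3 ∤ q - 1`
    have hinj : Function.Injective σ := by
      rw [injective_iff_map_eq_one]
      intro s hs
      apply center_eq_one hd
      have h1 := hρσ s
      rw [hs, map_one] at h1
      exact (QuotientGroup.eq_one_iff s).1 h1.symm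
    let eS : SpecialLinearGroup (Fin 3) F ≃* commutator G := MulEquiv.ofBijective σ ⟨hinj, hσ⟩
    refine ⟨commutator G, Subgroup.centralizer (commutator G : Set G), ⟨eS.symm⟩, ?_, le_rfl, ?_⟩
    · apply hmk
      rintro z hz -
      apply eS.symm.injective
      rw [map_one]
      apply center_eq_one hd
      rw [Subgroup.mem_center_iff]
      intro s
      apply eS.injective
      rw [map_mul, map_mul, MulEquiv.apply_symm_apply]
      exact Subgroup.mem_center_iff.1 hz (eS s)
    · rw [Subgroup.eq_top_iff']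
      intro g
      obtain ⟨A, hA⟩ := hmat g
      exact mem_sup σ hσ hA (mem_HH_of_not_dvd hd A)

end Cfsg.Agent.H462.T3
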