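import Cfsg.Agent.H691.T3.GLList
import Cfsg.Agent.H672.Over

/-!
# Arithmetic for `final3` (S4855) (helper462)
-/

set_option autoImplicit false

namespace Cfsg.Agent.H462.T3

open Cfsg Cfsg.Agent.H691 Cfsg.Agent.H691.T3

universe u

theorem pos_of_DT {q d : ℕ} (hq : 3 ≤ q) (hd : d ∈ DT q) : 0 < d := by
  obtain ⟨a, rfl⟩ : ∃ a, q = a + 3 := ⟨q - 3, by omega⟩
  have e1 : a + 3 - 1 = a + 2 := rfl
  unfold DT at hd
  simp only [Set.mem_ofPred_eq, e1] at hd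
  by_contra hcon
  obtain rfl : d = 0 := by omega
  rcases hd with h | h | h | h | h | ⟨h3, h | h⟩ | ⟨h5, h⟩ | ⟨h3, h | h⟩
  · omega
  · have : 0 < (a + 3) ^ 2 := by positivity
    omega
  · have : 0 < (a + 3) ^ 3 := by positivity
    omega
  · have : 1 < (a + 3) ^ 3 := Nat.one_lt_pow (by norm_num) (by omega)
    omega
  · have : 0 < (a + 2) ^ 2 * (a + 3 + 1) := by positivity
    omega
  · omega
  · have : 0 < (a + 3) * ((a + 3) ^ 2 + (a + 3) + 1) := by positivity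
    omega
  · have : 0 < (a + 3 + 1) * ((a + 3) ^ 2 + (a + 3) + 1) := by positivity
    omega
  · have : 0 < (a + 3 + 1) * ((a + 3) ^ 2 + (a + 3) + 1) := by positivity
    omega
  · have : 0 < (a + 2) ^ 2 * (a + 3 + 1) := by positivity
    omega

theorem lt_two_mul_cube {q d x : ℕ} (hq : 3 ≤ q) (hd : d ∈ DT q) (hx : x + 1 = q ^ 3) : d < 2 * x := by
  obtain ⟨a, rfl⟩ : ∃ a, q = a + 3 := ⟨q - 3, by omega⟩
  have e1 : a + 3 - 1 = a + 2 := rfl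
  have e3 : (a + 3) ^ 3 = a ^ 3 + 9 * a ^ 2 + 27 * a + 27 := by ring
  have e4 : (a + 2) ^ 2 * (a + 3 + 1) = a ^ 3 + 8 * a ^ 2 + 20 * a + 16 := by ring
  have e5 : (a + 3) ^ 2 = a ^ 2 + 6 * a + 9 := by ring
  have e6 : (a + 3) * (a ^ 2 + 6 * a + 9 + (a + 3) + 1) = a ^ 3 + 10 * a ^ 2 + 34 * a + 39 := by ring
  have e7 : (a + 3 + 1) * (a ^ 2 + 6 * a + 9 + (a + 3) + 1) = a ^ 3 + 11 * a ^ 2 + 41 * a + 52 := by ring
  unfold DT at hd
  simp only [Set.mem_ofPred_eq, e1, e3, e4, e5, e6, e7] at hd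
  rw [e3] at hx
  rcases hd with h | h | h | h | h | ⟨h3, h | h⟩ | ⟨h5, h⟩ | ⟨h3, h | h⟩ <;> omega

theorem lt_two_mul_c {q d : ℕ} (hq : 3 ≤ q) (hd : d ∈ DT q) (hdq : ¬ (q = 3 ∧ d = 39)) :
    d < 2 * ((q - 1) ^ 2 * (q + 1)) := by
  obtain ⟨a, rfl⟩ : ∃ a, q = a + 3 := ⟨q - 3, by omega⟩
  have e1 : a + 3 - 1 = a + 2 := rfl
  have e3 : (a + 3) ^ 3 = a ^ 3 + 9 * a ^ 2 + 27 * a + 27 := by ring
  have e4 : (a + 2) ^ 2 * (a + 3 + 1) = a ^ 3 + 8 * a ^ 2 + 20 * a + 16 := by ring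
  have e5 : (a + 3) ^ 2 = a ^ 2 + 6 * a + 9 := by ring
  have e6 : (a + 3) * (a ^ 2 + 6 * a + 9 + (a + 3) + 1) = a ^ 3 + 10 * a ^ 2 + 34 * a + 39 := by ring
  have e7 : (a + 3 + 1) * (a ^ 2 + 6 * a + 9 + (a + 3) + 1) = a ^ 3 + 11 * a ^ 2 + 41 * a + 52 := by ring
  unfold DT at hd
  simp only [Set.mem_ofPred_eq, e1, e3, e4, e5, e6, e7] at hd
  rw [e1, e4]
  rcases hd with h | h | h | h | h | ⟨h3, h | h⟩ | ⟨h5, h⟩ | ⟨h3, h | h⟩
  · omega
  · omega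
  · omega
  · omega
  · omega
  · omega
  · rcases Nat.eq_zero_or_pos a with h0 | h0
    · subst h0
      exact (hdq ⟨rfl, by rw [h]; norm_num⟩).elim
    · have h1 : 0 < a ^ 3 := by positivity
      have h2 : 0 < a ^ 2 := by positivity
      omega
  · obtain ⟨b, rfl⟩ : ∃ b, a = b + 2 := ⟨a - 2, by omega⟩
    nlinarith [Nat.zero_le (b ^ 3), Nat.zero_le (b ^ 2)]
  · omega
  · omega

/-- no element of `DT q` is a proper multiple of `(q - 1)² (q + 1)` or `q³ - 1` -/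
theorem no_mult {q d x y : ℕ} (hq : 3 ≤ q) (hd : d ∈ DT q) (hx : x = (q - 1) ^ 2 * (q + 1) ∨ x + 1 = q ^ 3)
    (hy : y ≠ 1) (h : y * x ∣ d) : False := by
  obtain ⟨z, rfl⟩ := h
  have hpos := pos_of_DT hq hd
  have hy0 : y ≠ 0 := by
    rintro rfl
    simp at hpos
  have hz0 : z ≠ 0 := by
    rintro rfl
    simp at hpos
  have hyz : 2 ≤ y * z := by
    have h1 : 2 ≤ y := by omega
    have h2 : 1 ≤ z := by omega
    calc 2 = 2 * 1 := rfl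
      _ ≤ y * z := Nat.mul_le_mul h1 h2
  have e : y * x * z = (y * z) * x := by ring
  rw [e] at hd
  have hle : 2 * x ≤ (y * z) * x := Nat.mul_le_mul_right _ hyz
  rcases hx with hx | hx
  · by_cases h3 : q = 3 ∧ (y * z) * x = 39
    · obtain ⟨rfl, h4⟩ := h3
      rw [hx] at h4
      omega
    · have := lt_two_mul_c hq hd h3
      rw [← hx] at this
      omega
  · have := lt_two_mul_cube hq hd hx
    omega

theorem not_q_dvd {q : ℕ} (hq : 3 ≤ q) : ¬ q ∣ (q - 1) ^ 2 * (q + 1) := by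
  obtain ⟨a, rfl⟩ : ∃ a, q = a + 3 := ⟨q - 3, by omega⟩
  have e1 : a + 3 - 1 = a + 2 := rfl
  have e4 : (a + 2) ^ 2 * (a + 3 + 1) = (a + 3) * (a ^ 2 + 5 * a + 5) + 1 := by ring
  rw [e1, e4]
  intro h
  have h1 := (Nat.dvd_add_right (Dvd.intro _ rfl)).1 h
  have := Nat.dvd_one.1 h1
  omega

theorem not_n_dvd {q : ℕ} (hq : 3 ≤ q) : ¬ (q ^ 2 + q + 1) ∣ (q - 1) ^ 2 * (q + 1) := by
  obtain ⟨a, rfl⟩ : ∃ a, q = a + 3 := ⟨q - 3, by omega⟩
  have e1 : a + 3 - 1 = a + 2 := rfl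
  have e4 : (a + 2) ^ 2 * (a + 3 + 1) = ((a + 3) ^ 2 + (a + 3) + 1) * (a + 1) + 3 := by ring
  rw [e1, e4]
  intro h
  have h1 := (Nat.dvd_add_right (Dvd.intro _ rfl)).1 h
  have h2 := Nat.le_of_dvd (by norm_num) h1
  nlinarith [Nat.zero_le (a ^ 2)]

/-- the degrees of `GL₃(F)` dividing `(q - 1)² (q + 1)` -/
theorem deg_cases {F : Type} [Field F] [Fintype F] (h3 : 3 ≤ Fintype.card F) (hgl : GLList F) {Φ : GL (Fin 3) F → ℂ}
    (hΦ : IsIrrCharacter _ Φ) (hd : charDegree Φ ∣ (Fintype.card F - 1) ^ 2 * (Fintype.card F + 1)) :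
    charDegree Φ = 1 ∨ charDegree Φ = (Fintype.card F - 1) ^ 2 * (Fintype.card F + 1) := by
  have hq := not_q_dvd h3
  have hn := not_n_dvd h3
  rcases hgl Φ hΦ with ⟨-, h | h | h | h | ⟨-, h | h⟩⟩ | ⟨h, -⟩ | h
  · exact Or.inl h
  · exfalso
    refine hq (dvd_trans ?_ hd)
    rw [h]
    exact ⟨Fintype.card F + 1, by ring⟩
  · exfalso
    refine hq (dvd_trans ?_ hd)
    rw [h]
    exact dvd_pow_self _ (by norm_num)
  · exfalso
    have h1 : 0 < (Fintype.card F - 1) ^ 2 * (Fintype.card F + 1) := by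
      have : 0 < Fintype.card F - 1 := by omega
      positivity
    have h2 := Nat.le_of_dvd h1 hd
    obtain ⟨a, ha⟩ : ∃ a, Fintype.card F = a + 3 := ⟨Fintype.card F - 3, by omega⟩
    rw [ha] at h h2
    have e1 : a + 3 - 1 = a + 2 := rfl
    have e3 : (a + 3) ^ 3 = a ^ 3 + 9 * a ^ 2 + 27 * a + 27 := by ring
    have e4 : (a + 2) ^ 2 * (a + 3 + 1) = a ^ 3 + 8 * a ^ 2 + 20 * a + 16 := by ring
    rw [e1, e4] at h2
    rw [e3] at h
    omega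
  · exact (hn (h ▸ hd)).elim
  · exact (hn (dvd_trans (by rw [h]; exact Dvd.intro_left _ rfl) hd)).elim
  · exact (hn (dvd_trans (by rw [h]; exact Dvd.intro_left _ rfl) hd)).elim
  · exact Or.inr h

end Cfsg.Agent.H462.T3
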