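import Cfsg.Agent.H691.T3.Defs
import Cfsg.Agent.H691.PDvd
import Cfsg.Agent.H462.T3.MulIrr

/-!
# `p` divides `|N / R|` (S4855) (helper462)

`pdvd3`.
-/

set_option autoImplicit false

open scoped ComplexConjugate

namespace Cfsg.Agent.H462.T3

open Cfsg Cfsg.Agent.Characters Cfsg.Agent.Characters.Core Cfsg.Agent.H681.DegBasic Cfsg.Agent.H686.CharKit
open Cfsg.Agent.H691 Cfsg.Agent.H691.T3

universe u

/-- the elements of `DT q` are less than `2 q³` -/
theorem lt_of_mem_DT {q d : ℕ} (hq : 2 ≤ q) (hd : d ∈ DT q) : d < 2 * q ^ 3 := by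
  obtain ⟨a, rfl⟩ : ∃ a, q = a + 2 := ⟨q - 2, by omega⟩
  have e1 : a + 2 - 1 = a + 1 := rfl
  unfold DT at hd
  simp only [Set.mem_ofPred_eq, e1] at hd
  rcases hd with h | h | h | h | h | ⟨h3, h | h⟩ | ⟨h5, h⟩ | ⟨h3, h | h⟩
  · have : 0 < (a + 2) ^ 3 := by positivity
    omega
  · nlinarith [Nat.zero_le (a ^ 3), Nat.zero_le (a ^ 2)]
  · have : 0 < (a + 2) ^ 3 := by positivity
    omega
  · have : 0 < (a + 2) ^ 3 := by positivity
    omega
  · nlinarith [Nat.zero_le (a ^ 3), Nat.zero_le (a ^ 2)]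
  · nlinarith [Nat.zero_le (a ^ 3), Nat.zero_le (a ^ 2)]
  · nlinarith [Nat.zero_le (a ^ 3), Nat.zero_le (a ^ 2)]
  · obtain ⟨b, rfl⟩ : ∃ b, a = b + 3 := ⟨a - 3, by omega⟩
    nlinarith [Nat.zero_le (b ^ 3), Nat.zero_le (b ^ 2)]
  · nlinarith [Nat.zero_le (a ^ 3), Nat.zero_le (a ^ 2)]
  · nlinarith [Nat.zero_le (a ^ 3), Nat.zero_le (a ^ 2)]

/-- **`p` divides `|N : R|`.** -/
theorem pdvd3 {G : Type*} [Group G] [Finite G] {p F : ℕ} (hp : p.Prime) (hF : F ≠ 0)
    (hst : (p ^ F) ^ 3 ∈ charDegrees G) (hD : charDegrees G ⊆ DT (p ^ F)) (N R : Subgroup G) [N.Normal] [R.Normal]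
    (hRN : R ≤ N) (hN : ⁅N, N⁆ = N) {β : G → ℂ} (hβ : IsIrrCharacter G β)
    (hβN : IsIrrCharacter N (fun n : N => β n)) (hβR : ∀ r ∈ R, β r = β 1) (hβ1 : β 1 ≠ 1) :
    p ∣ Nat.card (N ⧸ R.subgroupOf N) := by
  classical
  by_contra hcon
  have := Fintype.ofFinite G
  have := Fintype.ofFinite N
  have := Fintype.ofFinite R
  have := Fintype.ofFinite (R.subgroupOf N)
  have hperf : commutator N = ⊤ := by
    apply Subgroup.map_injective N.subtype_injective
    rw [commutator_def, Subgroup.map_commutator, ← MonoidHom.range_eq_map, Subgroup.range_subtype, hN]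
  have hcop : ∀ m, m ∣ Nat.card (N ⧸ R.subgroupOf N) → ∀ k, m ∣ p ^ k → m = 1 := by
    intro m hm k hk
    obtain ⟨j, -, rfl⟩ := (Nat.dvd_prime_pow hp).1 hk
    rcases Nat.eq_zero_or_pos j with rfl | hj
    · exact pow_zero p
    · exact (hcon ((dvd_pow_self p hj.ne').trans hm)).elim
  obtain ⟨χ, hχd⟩ := hst
  have hχ := χ.2
  have hχc := isIrr_isCharacter hχ
  -- the constituents of `χ` on `N` restrict irreducibly to `R`
  have hirr : ∀ ψ : N → ℂ, IsIrrCharacter N ψ → classInner (fun n : N => (χ : G → ℂ) n) ψ ≠ 0 →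
      IsIrrCharacter (R.subgroupOf N) (fun r : R.subgroupOf N => ψ r) := by
    intro ψ hψ ho
    have hoψ : H672.Over N.subtype (χ : G → ℂ) ψ := by
      rw [H672.over_iff]
      exact ho
    have h1 := (H672.charDegree_dvd_of_over N hχ hψ hoψ).1
    rw [hχd, ← pow_mul] at h1
    obtain ⟨φ, hφ, hoφ⟩ := H672.exists_under (f := (R.subgroupOf N).subtype) hψ
    obtain ⟨h2, h3⟩ := H672.charDegree_dvd_of_over (R.subgroupOf N) hψ hφ hoφ
    have h4 : charDegree ψ / charDegree φ = 1 := by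
      refine hcop _ ?_ (F * 3) (dvd_trans (Nat.div_dvd_of_dvd h2) h1)
      rw [Subgroup.index_eq_card] at h3
      exact h3
    have h5 : charDegree φ = charDegree ψ := by
      obtain ⟨k, hk⟩ := h2
      rw [hk, Nat.mul_div_cancel_left _ (H672.charDegree_pos hφ)] at h4
      rw [hk, h4, mul_one]
    have h6 := H672.eq_of_over_of_charDegree_eq hψ hφ hoφ h5
    have h7 : (fun r : R.subgroupOf N => ψ r) = φ := h6
    rw [h7]
    exact hφ
  have hwc : IsCharacter N (fun n : N => (χ : G → ℂ) n) := isCharacter_comp N.subtype hχc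
  have hnorm := norm_eq hperf (R.subgroupOf N) hwc hirr
  have hprod : IsIrrCharacter G ((χ : G → ℂ) * β) := by
    refine isIrr_mul N R hRN hχ hβ hβN hβR ?_
    rw [classInner_def, classInner_def] at hnorm
    rw [← hnorm]
    have h1 : Nat.card R = Nat.card (R.subgroupOf N) := Nat.card_congr (Subgroup.subgroupOfEquivOfLe hRN).symm.toEquiv
    rw [h1]
    congr 1
    exact Fintype.sum_equiv (Subgroup.subgroupOfEquivOfLe hRN).symm.toEquiv _ _ fun r => rfl
  have h1 : charDegree ((χ : G → ℂ) * β) = charDegree (χ : G → ℂ) * charDegree β := by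
    apply H672.charDegree_of_eq
    rw [Pi.mul_apply, Nat.cast_mul, H672.coe_charDegree hχ, H672.coe_charDegree hβ]
  have h2 : charDegree ((χ : G → ℂ) * β) ∈ DT (p ^ F) := hD ⟨⟨_, hprod⟩, rfl⟩
  have h3 : 2 ≤ charDegree β := by
    have h4 := H672.charDegree_pos hβ
    have h5 : charDegree β ≠ 1 := by
      intro h6
      apply hβ1
      rw [← H672.coe_charDegree hβ, h6, Nat.cast_one]
    omega
  have hq : 2 ≤ p ^ F := hp.two_le.trans (Nat.le_self_pow hF p)
  have h4 := lt_of_mem_DT hq h2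
  rw [h1, hχd] at h4
  have h5 : (p ^ F) ^ 3 * 2 ≤ (p ^ F) ^ 3 * charDegree β := Nat.mul_le_mul_left _ h3
  omega

end Cfsg.Agent.H462.T3
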